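import Cfsg.Agent.H706.PB.Defs

/-!
# S4884, the tool T3 (helper54)

`exists_of_comb`: an integral combination `Θ = ∑ n_χ χ` with `n_1` prime to `q` whose sum over the `q`-regular elements is `0` modulo
`q` has a constituent `χ ≠ 1` in the principal `q`-block, of degree prime to `q`.

`exists_of_virtual`: the case of a combination of transitive permutation characters of degrees divisible by `q`.

`rowReal_of_comb`, `rowReal_of_virtual`: the real row, if the constituents are real of odd degree.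
-/

set_option autoImplicit false
set_option linter.unusedSectionVars false

namespace Cfsg.Agent.H54.PB

open Cfsg Subgroup Cfsg.Agent.Blocks Cfsg.Agent.Blocks.Blau Cfsg.Agent.H145.BR Cfsg.Agent.Characters.Core
open Cfsg.Agent.H493.RatB Cfsg.Agent.H706.PB

universe u v w

section

variable {G : Type u} [Group G] [Fintype G] {p : ℕ} [hp : Fact p.Prime] {M : Ideal AlgInt}

/-- the sum over the `p`-regular elements of a member of the principal block -/
theorem sum_reg_mem (hM : IsPModular p M) {χ : IrrCharacter G} (hχ : χ ∈ principalBlock M G) :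
    MemLocalIdeal M (∑ g : G, regPart p (χ : G → ℂ) g -
      (H116.RatB0.reg p (⊤ : Subgroup G) : ℂ) * charDegree (χ : G → ℂ)) := by
  have hprime : M.IsPrime := Blocks.Local.isPrime_of_isPModular hM
  set R : ℕ := H116.RatB0.reg p (⊤ : Subgroup G) with hR
  have h1 := pair_div_sub_pair_div hM (H893.Sd.one G).2 χ.2 (isIrr_isCharacter (H893.Sd.one G).2) hχ
  have h3 : pair p ((H893.Sd.one G : IrrCharacter G) : G → ℂ) ((H893.Sd.one G : IrrCharacter G) : G → ℂ) =
    (Nat.card {x : G // ¬ p ∣ orderOf x} : ℂ) := H893.Sd.pair_one_one p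
  have h4 : ((H893.Sd.one G : IrrCharacter G) : G → ℂ) 1 = 1 := rfl
  have h5 : pair p (χ : G → ℂ) ((H893.Sd.one G : IrrCharacter G) : G → ℂ) = ∑ g : G, regPart p (χ : G → ℂ) g :=
    H893.Sd.pair_one p _
  have hd0 : (charDegree (χ : G → ℂ) : ℂ) ≠ 0 := by
    exact_mod_cast (Blocks.Basic.charDegree_pos χ.2).ne'
  have hRe : (R : ℂ) = (Nat.card {x : G // ¬ p ∣ orderOf x} : ℂ) := by
    show ((H116.RatB0.reg p (⊤ : Subgroup G) : ℕ) : ℂ) = _
    rw [H116.RatB0.reg_top]
  rw [h3, h4, h5, div_one, ← hRe, Blocks.Basic.irr_one_eq_charDegree χ.2] at h1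
  have h6 := Blocks.LocalRing.memLocalIdeal_mul_left hM
    (Blocks.LocalRing.memLocalRing_natCast hM (charDegree (χ : G → ℂ))) ((Blocks.LocalRing.memLocalIdeal_sub_comm).1 h1)
  have h7 : (charDegree (χ : G → ℂ) : ℂ) * (∑ g : G, regPart p (χ : G → ℂ) g / (charDegree (χ : G → ℂ) : ℂ) - R) =
      ∑ g : G, regPart p (χ : G → ℂ) g - (R : ℂ) * charDegree (χ : G → ℂ) := by
    rw [← Finset.sum_div]
    field_simp
  rw [← Finset.sum_div] at h7
  rw [h7] at h6
  exact h6

theorem sum_reg_not_mem (hM : IsPModular p M) {χ : IrrCharacter G} (hχ : χ ∉ principalBlock M G) :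
    ∑ g : G, regPart p (χ : G → ℂ) g = 0 := by
  by_contra hne
  exact hχ ((H893.Sd.mem_iff hM χ).2 hne)

theorem memLocalRing_intCast (hM : IsPModular p M) (k : ℤ) : MemLocalRing M (k : ℂ) := by
  refine Blocks.LocalRing.memLocalRing_of_isIntegral hM ?_
  exact isIntegral_algebraMap (R := ℤ) (A := ℂ) (x := k)

/-- **T3** for an integral combination -/
theorem exists_of_comb (hM : IsPModular p M) [Fintype (IrrCharacter G)] (n : IrrCharacter G → ℤ)
    (h1 : ¬ (p : ℤ) ∣ n (H893.Sd.one G))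
    (hs : MemLocalIdeal M (∑ χ : IrrCharacter G, (n χ : ℂ) * ∑ g : G, regPart p (χ : G → ℂ) g)) :
    ∃ χ : IrrCharacter G, χ ∈ principalBlock M G ∧ (χ : G → ℂ) ≠ (fun _ => 1) ∧
      ¬ p ∣ charDegree (χ : G → ℂ) ∧ n χ ≠ 0 := by
  classical
  have hprime : M.IsPrime := Blocks.Local.isPrime_of_isPModular hM
  set R : ℕ := H116.RatB0.reg p (⊤ : Subgroup G) with hRd
  have hR : ¬ p ∣ R := by
    rw [hRd, H116.RatB0.reg_top]
    exact Blocks.RegularCount.not_dvd_card_regular
  by_contra hcon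
  push Not at hcon
  rw [← Finset.add_sum_erase Finset.univ _ (Finset.mem_univ (H893.Sd.one G))] at hs
  have hrest : MemLocalIdeal M (∑ χ ∈ Finset.univ.erase (H893.Sd.one G), (n χ : ℂ) * ∑ g : G, regPart p (χ : G → ℂ) g) := by
    refine Blocks.LocalRing.memLocalIdeal_sum hM _ _ fun χ hχ => ?_
    have hχ1 : (χ : G → ℂ) ≠ fun _ => 1 := by
      intro h
      exact (Finset.mem_erase.1 hχ).1 (Subtype.ext h)
    by_cases hB : χ ∈ principalBlock M G
    · by_cases hdeg : p ∣ charDegree (χ : G → ℂ)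
      · refine Blocks.LocalRing.memLocalIdeal_mul_left hM (memLocalRing_intCast hM _) ?_
        have h1 := sum_reg_mem hM hB
        have h2 : MemLocalIdeal M ((R : ℂ) * charDegree (χ : G → ℂ)) := by
          rw [← Nat.cast_mul, Blocks.LocalRing.memLocalIdeal_natCast_iff hM]
          exact hdeg.mul_left _
        have h3 := Blocks.LocalRing.memLocalIdeal_add hM h1 h2
        rwa [sub_add_cancel] at h3
      · rw [hcon χ hB hχ1 hdeg, Int.cast_zero, zero_mul]
        exact Blocks.LocalRing.memLocalIdeal_zero hM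
    · rw [sum_reg_not_mem hM hB, mul_zero]
      exact Blocks.LocalRing.memLocalIdeal_zero hM
  have hone := Blocks.LocalRing.memLocalIdeal_sub hM hs hrest
  rw [add_sub_cancel_right] at hone
  have h2 := Blocks.LocalRing.memLocalIdeal_mul_left hM (memLocalRing_intCast hM (n (H893.Sd.one G)))
    (sum_reg_mem (χ := H893.Sd.one G) hM Blocks.PrincipalSection.one_mem_principalBlock : MemLocalIdeal M
      (∑ g : G, regPart p ((H893.Sd.one G : IrrCharacter G) : G → ℂ) g -
        (R : ℂ) * charDegree ((H893.Sd.one G : IrrCharacter G) : G → ℂ)))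
  have h3 := Blocks.LocalRing.memLocalIdeal_sub hM hone h2
  have hdeg1 : charDegree ((H893.Sd.one G : IrrCharacter G) : G → ℂ) = 1 :=
    Blocks.Basic.charDegree_of_eq (by rw [Nat.cast_one]; rfl)
  rw [← mul_sub, sub_sub_cancel, hdeg1, Nat.cast_one, mul_one] at h3
  have h4 : ((n (H893.Sd.one G) : ℤ) : ℂ) * (R : ℂ) = ((n (H893.Sd.one G) * R : ℤ) : ℂ) := by push_cast; rfl
  rw [h4] at h3
  -- descent to `ℤ`
  have h5 : (p : ℤ) ∣ n (H893.Sd.one G) * R := by
    have h6 : MemLocalIdeal M (((n (H893.Sd.one G) * R).natAbs : ℕ) : ℂ) := by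
      rcases Int.natAbs_eq (n (H893.Sd.one G) * R) with h | h
      · rw [h] at h3
        rwa [Int.cast_natCast] at h3
      · have h7 := Blocks.LocalRing.memLocalIdeal_sub hM (Blocks.LocalRing.memLocalIdeal_zero hM) h3
        rw [zero_sub] at h7
        rw [h, Int.cast_neg, neg_neg, Int.cast_natCast] at h7
        exact h7
    rw [Blocks.LocalRing.memLocalIdeal_natCast_iff hM] at h6
    exact Int.natCast_dvd.2 h6
  rcases (Nat.prime_iff_prime_int.1 hp.out).dvd_or_dvd h5 with h6 | h6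
  · exact h1 h6
  · exact hR (Int.natCast_dvd_natCast.1 h6)

/-- **T3** for a combination of permutation characters of degrees divisible by `p` -/
theorem exists_of_virtual (hM : IsPModular p M) {ι : Type w} (s : Finset ι) (X : ι → Type v) [∀ i, Finite (X i)]
    [∀ i, MulAction G (X i)] [∀ i, MulAction.IsPretransitive G (X i)] [∀ i, Nonempty (X i)] (c : ι → ℤ)
    (hc : ¬ (p : ℤ) ∣ ∑ i ∈ s, c i) (hd : ∀ i ∈ s, p ∣ Nat.card (X i)) :
    ∃ χ : IrrCharacter G, χ ∈ principalBlock M G ∧ (χ : G → ℂ) ≠ (fun _ => 1) ∧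
      ¬ p ∣ charDegree (χ : G → ℂ) ∧ ∑ i ∈ s, (c i : ℂ) * classInner (permC G (X i)) (χ : G → ℂ) ≠ 0 := by
  classical
  have := finite_irr (G := G)
  have := Fintype.ofFinite (IrrCharacter G)
  choose m hm using fun i => exists_nat_comb (isCharacter_permC (G := G) (X := X i))
  have hpc : ∀ (i : ι) (ξ : IrrCharacter G), classInner (permC G (X i)) (ξ : G → ℂ) = m i ξ := by
    intro i ξ
    rw [hm i]
    exact classInner_sum_nsmul_irr (m i) ξ
  have hm1 : ∀ i, m i (H893.Sd.one G) = 1 := by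
    intro i
    have h1 := hpc i (H893.Sd.one G)
    have h2 : classInner (permC G (X i)) ((H893.Sd.one G : IrrCharacter G) : G → ℂ) = 1 := permC_pair
    rw [h2] at h1
    exact_mod_cast h1.symm
  obtain ⟨χ, h1, h2, h3, h4⟩ := exists_of_comb hM (fun χ => ∑ i ∈ s, c i * (m i χ : ℤ)) (by
    simp only [hm1, Nat.cast_one, mul_one]
    exact hc) (by
    have h5 : ∑ χ : IrrCharacter G, ((∑ i ∈ s, c i * (m i χ : ℤ) : ℤ) : ℂ) * ∑ g : G, regPart p (χ : G → ℂ) g =
        ∑ i ∈ s, (c i : ℂ) * ∑ g : G, regPart p (permC G (X i)) g := by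
      simp only [Int.cast_sum, Int.cast_mul, Int.cast_natCast, Finset.sum_mul]
      rw [Finset.sum_comm]
      refine Finset.sum_congr rfl fun i _ => ?_
      simp only [mul_assoc]
      rw [← Finset.mul_sum]
      congr 1
      simp_rw [Finset.mul_sum]
      rw [Finset.sum_comm]
      refine Finset.sum_congr rfl fun g _ => ?_
      by_cases hg : p ∣ orderOf g
      · rw [regPart_of_dvd hg, Finset.sum_eq_zero]
        intro χ _
        rw [regPart_of_dvd hg, mul_zero]
      · rw [regPart_of_not_dvd hg]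
        conv_rhs => rw [hm i]
        simp only [Finset.sum_apply, nsmul_eq_mul, Pi.mul_apply, Pi.natCast_apply]
        refine Finset.sum_congr rfl fun χ _ => ?_
        rw [regPart_of_not_dvd hg]
    rw [h5]
    refine Blocks.LocalRing.memLocalIdeal_sum hM _ _ fun i hi => ?_
    refine Blocks.LocalRing.memLocalIdeal_mul_left hM (memLocalRing_intCast hM _) ?_
    obtain ⟨x⟩ := (inferInstance : Nonempty (X i))
    rw [sum_regPart_permC x p, Blocks.LocalRing.memLocalIdeal_natCast_iff hM]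
    exact (hd i hi).mul_right _)
  refine ⟨χ, h1, h2, h3, ?_⟩
  simp only [hpc]
  intro h5
  apply h4
  have h6 : ((∑ i ∈ s, c i * (m i χ : ℤ) : ℤ) : ℂ) = 0 := by
    rw [← h5]
    push_cast
    rfl
  exact_mod_cast h6

/-- a sum over the `p`-regular elements, modulo `p`: only `C(U)` counts -/
theorem sum_reg_sub (hM : IsPModular p M) {U : Subgroup G} (hU : IsPGroup p U) (f : G → ℂ)
    (hf : ∀ g h : G, f (h * g * h⁻¹) = f g) (hi : ∀ g, MemLocalRing M (f g)) :
    MemLocalIdeal M (∑ g : G, regPart p f g - ∑ᶠ g : {g : G // ¬ p ∣ orderOf g ∧ g ∈ centralizer (U : Set G)}, f g) := by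
  classical
  set s : Finset G := Finset.univ.filter fun g => ¬ p ∣ orderOf g with hs
  set s' : Finset G := s.filter fun g => g ∈ centralizer (U : Set G) with hs'
  have e1 : ∑ g : G, regPart p f g = ∑ g ∈ s, f g := by
    rw [hs, Finset.sum_filter]
    refine Finset.sum_congr rfl fun g _ => ?_
    by_cases hg : p ∣ orderOf g
    · rw [regPart_of_dvd hg, if_neg (not_not.2 hg)]
    · rw [regPart_of_not_dvd hg, if_pos hg]
  have e2 : ∑ᶠ g : {g : G // ¬ p ∣ orderOf g ∧ g ∈ centralizer (U : Set G)}, f g = ∑ g ∈ s', f g := by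
    rw [finsum_eq_sum_of_fintype]
    refine (Finset.sum_subtype s' (p := fun g => ¬ p ∣ orderOf g ∧ g ∈ centralizer (U : Set G)) ?_ f).symm
    intro g
    rw [hs', Finset.mem_filter, hs, Finset.mem_filter]
    simp
  rw [e1, e2]
  have e3 : ∑ g ∈ s, f g = ∑ b ∈ s.image f, ((s.filter fun g => f g = b).card : ℂ) * b := by
    have := Finset.sum_comp (s := s) (fun b : ℂ => b) f
    rw [this]
    refine Finset.sum_congr rfl fun b _ => ?_
    rw [nsmul_eq_mul]
  have e4 : ∑ g ∈ s', f g = ∑ b ∈ s.image f, ((s'.filter fun g => f g = b).card : ℂ) * b := by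
    have := Finset.sum_comp (s := s') (fun b : ℂ => b) f
    rw [this]
    have hsub : s'.image f ⊆ s.image f := Finset.image_subset_image (Finset.filter_subset _ _)
    rw [← Finset.sum_subset hsub]
    · refine Finset.sum_congr rfl fun b _ => ?_
      rw [nsmul_eq_mul]
    · intro b _ hb
      have : (s'.filter fun g => f g = b) = ∅ := by
        rw [Finset.filter_eq_empty_iff]
        intro g hg hgb
        exact hb (Finset.mem_image.2 ⟨g, hg, hgb⟩)
      rw [this, Finset.card_empty, Nat.cast_zero, zero_mul]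
  rw [e3, e4, ← Finset.sum_sub_distrib]
  refine Blocks.LocalRing.memLocalIdeal_sum hM _ _ fun b hb => ?_
  obtain ⟨g0, -, rfl⟩ := Finset.mem_image.1 hb
  rw [← sub_mul]
  refine Blocks.LocalRing.memLocalIdeal_mul_right hM ?_ (hi g0)
  have h1 := H684.BlockQuot.card_modEq hU (fun y => ¬ p ∣ orderOf y ∧ f y = f g0) (fun u _ y hy => by
    refine ⟨?_, by rw [hf]; exact hy.2⟩
    rw [orderOf_conj_eq]
    exact hy.1)
  have c1 : Nat.card {y : G // ¬ p ∣ orderOf y ∧ f y = f g0} = (s.filter fun g => f g = f g0).card := by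
    rw [Nat.card_eq_fintype_card, Fintype.card_subtype, hs, Finset.filter_filter]
  have c2 : Nat.card {y : G // (¬ p ∣ orderOf y ∧ f y = f g0) ∧ y ∈ centralizer (U : Set G)} =
      (s'.filter fun g => f g = f g0).card := by
    rw [Nat.card_eq_fintype_card, Fintype.card_subtype, hs', hs, Finset.filter_filter, Finset.filter_filter]
    congr 1
    ext y
    simp only [Finset.mem_filter, Finset.mem_univ, true_and]
    tauto
  rw [c1, c2] at h1
  have h2 := (Nat.modEq_iff_dvd.1 h1.symm)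
  have h3 := memLocalIdeal_intCast hM h2
  rw [Int.cast_sub, Int.cast_natCast, Int.cast_natCast] at h3
  exact h3

/-- **T3** for a generalized character `Θ` with: every `p`-regular element `g` of `C(U)` commutes with a `p`-element `y` such that
`Θ(y g) = 0` (modulo `p`) -/
theorem exists_of_vanish (hM : IsPModular p M) [Fintype (IrrCharacter G)] (n : IrrCharacter G → ℤ)
    (h1 : ¬ (p : ℤ) ∣ n (H893.Sd.one G)) {U : Subgroup G} (hU : IsPGroup p U)
    (hv : ∀ g ∈ centralizer (U : Set G), ¬ p ∣ orderOf g → ∃ y : G, Commute y g ∧ (∃ k, orderOf y = p ^ k) ∧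
      MemLocalIdeal M (∑ χ : IrrCharacter G, (n χ : ℂ) * (χ : G → ℂ) (y * g))) :
    ∃ χ : IrrCharacter G, χ ∈ principalBlock M G ∧ (χ : G → ℂ) ≠ (fun _ => 1) ∧
      ¬ p ∣ charDegree (χ : G → ℂ) ∧ n χ ≠ 0 := by
  classical
  have hprime : M.IsPrime := Blocks.Local.isPrime_of_isPModular hM
  refine exists_of_comb hM n h1 ?_
  set f : G → ℂ := fun g => ∑ χ : IrrCharacter G, (n χ : ℂ) * (χ : G → ℂ) g with hf
  have hint : ∀ (χ : IrrCharacter G) (x : G), MemLocalRing M ((χ : G → ℂ) x) := fun χ x =>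
    Blocks.LocalRing.memLocalRing_of_isIntegral hM (CharactersDeep.ModCongr.isIntegral_irr χ.2 x)
  have hi : ∀ g, MemLocalRing M (f g) := fun g =>
    Blocks.LocalRing.memLocalRing_sum hM _ _ fun χ _ =>
      Blocks.LocalRing.memLocalRing_mul hM (memLocalRing_intCast hM _) (hint χ g)
  have hcl : ∀ g h : G, f (h * g * h⁻¹) = f g := by
    intro g h
    refine Finset.sum_congr rfl fun χ _ => ?_
    congr 1
    exact (Blocks.Basic.irr_isConj χ.2 (isConj_iff.2 ⟨h, rfl⟩)).symm
  have h2 := sum_reg_sub hM hU f hcl hi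
  have h3 : ∑ χ : IrrCharacter G, (n χ : ℂ) * ∑ g : G, regPart p (χ : G → ℂ) g = ∑ g : G, regPart p f g := by
    simp_rw [Finset.mul_sum]
    rw [Finset.sum_comm]
    refine Finset.sum_congr rfl fun g _ => ?_
    by_cases hg : p ∣ orderOf g
    · rw [regPart_of_dvd hg, Finset.sum_eq_zero]
      intro χ _
      rw [regPart_of_dvd hg, mul_zero]
    · rw [regPart_of_not_dvd hg]
      refine Finset.sum_congr rfl fun χ _ => ?_
      rw [regPart_of_not_dvd hg]
  rw [h3]
  have h4 : MemLocalIdeal M (∑ᶠ g : {g : G // ¬ p ∣ orderOf g ∧ g ∈ centralizer (U : Set G)}, f g) := by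
    rw [finsum_eq_sum_of_fintype]
    refine Blocks.LocalRing.memLocalIdeal_sum hM _ _ fun g _ => ?_
    obtain ⟨g, hg1, hg2⟩ := g
    obtain ⟨y, hc, hk, hy⟩ := hv g hg2 hg1
    have h5 : MemLocalIdeal M (f (y * g) - f g) := by
      rw [hf]
      simp only
      rw [← Finset.sum_sub_distrib]
      refine Blocks.LocalRing.memLocalIdeal_sum hM _ _ fun χ _ => ?_
      rw [← mul_sub]
      refine Blocks.LocalRing.memLocalIdeal_mul_left hM (memLocalRing_intCast hM _) ?_
      have h6 := CharactersDeep.ModCongr.memLocalIdeal_character_sub hM χ.2 (y * g) y ⟨g, rfl, hc, hk, hg1⟩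
      rwa [inv_mul_cancel_left] at h6
    have h6 := Blocks.LocalRing.memLocalIdeal_sub hM hy h5
    rwa [sub_sub_cancel] at h6
  have h5 := Blocks.LocalRing.memLocalIdeal_add hM h2 h4
  rwa [sub_add_cancel] at h5

/-- **the real row from T3** -/
theorem rowReal_of_virtual {ι : Type w} (s : Finset ι) (X : ι → Type v) [∀ i, Finite (X i)]
    [∀ i, MulAction G (X i)] [∀ i, MulAction.IsPretransitive G (X i)] [∀ i, Nonempty (X i)] (c : ι → ℤ)
    (hc : ¬ (p : ℤ) ∣ ∑ i ∈ s, c i) (hd : ∀ i ∈ s, p ∣ Nat.card (X i))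
    (hodd : ∀ χ : IrrCharacter G, ∑ i ∈ s, (c i : ℂ) * classInner (permC G (X i)) (χ : G → ℂ) ≠ 0 →
      ¬ 2 ∣ charDegree (χ : G → ℂ) ∧ ∀ g : G, ((χ : G → ℂ) g).im = 0) : RowReal p G := by
  intro M hM
  obtain ⟨χ, h1, h2, h3, h4⟩ := exists_of_virtual (G := G) hM s X c hc hd
  exact ⟨χ, h1, h2, (hodd χ h4).1, h3, (hodd χ h4).2⟩

/-- **T3** for a combination `Θ` of permutation characters with `Θ(y g) = 0` for the `p`-regular elements `g` of `C(U)` and a
`p`-element `y` commuting with `g` -/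
theorem exists_of_virtual_vanish (hM : IsPModular p M) {ι : Type w} (s : Finset ι) (X : ι → Type v) [∀ i, Finite (X i)]
    [∀ i, MulAction G (X i)] [∀ i, MulAction.IsPretransitive G (X i)] [∀ i, Nonempty (X i)] (c : ι → ℤ)
    (hc : ¬ (p : ℤ) ∣ ∑ i ∈ s, c i) {U : Subgroup G} (hU : IsPGroup p U)
    (hv : ∀ g ∈ centralizer (U : Set G), ¬ p ∣ orderOf g → ∃ y : G, Commute y g ∧ (∃ k, orderOf y = p ^ k) ∧
      ∑ i ∈ s, c i * (Nat.card {x : X i // (y * g) • x = x} : ℤ) = 0) :
    ∃ χ : IrrCharacter G, χ ∈ principalBlock M G ∧ (χ : G → ℂ) ≠ (fun _ => 1) ∧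
      ¬ p ∣ charDegree (χ : G → ℂ) ∧ ∑ i ∈ s, (c i : ℂ) * classInner (permC G (X i)) (χ : G → ℂ) ≠ 0 := by
  classical
  have := finite_irr (G := G)
  have := Fintype.ofFinite (IrrCharacter G)
  choose m hm using fun i => exists_nat_comb (isCharacter_permC (G := G) (X := X i))
  have hpc : ∀ (i : ι) (ξ : IrrCharacter G), classInner (permC G (X i)) (ξ : G → ℂ) = m i ξ := by
    intro i ξ
    rw [hm i]
    exact classInner_sum_nsmul_irr (m i) ξ
  have hm1 : ∀ i, m i (H893.Sd.one G) = 1 := by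
    intro i
    have h1 := hpc i (H893.Sd.one G)
    have h2 : classInner (permC G (X i)) ((H893.Sd.one G : IrrCharacter G) : G → ℂ) = 1 := permC_pair
    rw [h2] at h1
    exact_mod_cast h1.symm
  obtain ⟨χ, h1, h2, h3, h4⟩ := exists_of_vanish hM (fun χ => ∑ i ∈ s, c i * (m i χ : ℤ)) (by
    simp only [hm1, Nat.cast_one, mul_one]
    exact hc) hU (by
    intro g hg hg'
    obtain ⟨y, hy1, hy2, hy3⟩ := hv g hg hg'
    refine ⟨y, hy1, hy2, ?_⟩
    have h5 : ∑ χ : IrrCharacter G, ((∑ i ∈ s, c i * (m i χ : ℤ) : ℤ) : ℂ) * (χ : G → ℂ) (y * g) =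
        ∑ i ∈ s, (c i : ℂ) * permC G (X i) (y * g) := by
      simp only [Int.cast_sum, Int.cast_mul, Int.cast_natCast, Finset.sum_mul]
      rw [Finset.sum_comm]
      refine Finset.sum_congr rfl fun i _ => ?_
      simp only [mul_assoc]
      rw [← Finset.mul_sum]
      congr 1
      conv_rhs => rw [hm i]
      simp only [Finset.sum_apply, nsmul_eq_mul, Pi.mul_apply, Pi.natCast_apply]
    rw [h5]
    have h6 : ∑ i ∈ s, (c i : ℂ) * permC G (X i) (y * g) =
        ((∑ i ∈ s, c i * (Nat.card {x : X i // (y * g) • x = x} : ℤ) : ℤ) : ℂ) := by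
      push_cast
      refine Finset.sum_congr rfl fun i _ => ?_
      rfl
    rw [h6, hy3, Int.cast_zero]
    exact Blocks.LocalRing.memLocalIdeal_zero hM)
  refine ⟨χ, h1, h2, h3, ?_⟩
  simp only [hpc]
  intro h5
  apply h4
  have h6 : ((∑ i ∈ s, c i * (m i χ : ℤ) : ℤ) : ℂ) = 0 := by
    rw [← h5]
    push_cast
    rfl
  exact_mod_cast h6

/-- **the real row from T3** (vanishing form) -/
theorem rowReal_of_vanish {ι : Type w} (s : Finset ι) (X : ι → Type v) [∀ i, Finite (X i)]
    [∀ i, MulAction G (X i)] [∀ i, MulAction.IsPretransitive G (X i)] [∀ i, Nonempty (X i)] (c : ι → ℤ)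
    (hc : ¬ (p : ℤ) ∣ ∑ i ∈ s, c i) {U : Subgroup G} (hU : IsPGroup p U)
    (hv : ∀ g ∈ centralizer (U : Set G), ¬ p ∣ orderOf g → ∃ y : G, Commute y g ∧ (∃ k, orderOf y = p ^ k) ∧
      ∑ i ∈ s, c i * (Nat.card {x : X i // (y * g) • x = x} : ℤ) = 0)
    (hodd : ∀ χ : IrrCharacter G, ∑ i ∈ s, (c i : ℂ) * classInner (permC G (X i)) (χ : G → ℂ) ≠ 0 →
      ¬ 2 ∣ charDegree (χ : G → ℂ) ∧ ∀ g : G, ((χ : G → ℂ) g).im = 0) : RowReal p G := by
  intro M hM
  obtain ⟨χ, h1, h2, h3, h4⟩ := exists_of_virtual_vanish (G := G) hM s X c hc hU hv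
  exact ⟨χ, h1, h2, (hodd χ h4).1, h3, (hodd χ h4).2⟩

end

end Cfsg.Agent.H54.PB
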